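import Cfsg.Agent.H35.F4Two.Ent
import Cfsg.Agent.H79.SimpleGen

/-!
# Root elements of `F₄` in characteristic two acting on bit vectors of the adjoint module (helper39, for S3938)

`act r m` : the action of `x_r(1)` on the bit vector `m : ℕ` (52 bits); `dvd_order` : divisors of the order of a product of
root elements from the orbit of one bit vector.
-/

set_option autoImplicit false

namespace Cfsg.Agent.H39.F4G

open Cfsg Cfsg.Lie Cfsg.Agent.ChevalleyStructure Cfsg.Agent.ChevalleyStructure.Elts
open Cfsg.Agent.H952.F4.Two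
open Cfsg.Agent.H79.SimpleGen (xS mat_xS)

universe u
variable {K : Type u} [Field K]

/-- the bit `c` of `m` in `K` -/
def bt (K : Type u) [Field K] (m c : ℕ) : K := bif Nat.testBit m c then 1 else 0

theorem bt_zero (c : ℕ) : bt K 0 c = 0 := by
  unfold bt
  rw [Nat.zero_testBit, cond_false]

theorem bt_xor [CharP K 2] (m n c : ℕ) : bt K (m ^^^ n) c = bt K m c + bt K n c := by
  unfold bt
  rw [Nat.testBit_xor]
  cases m.testBit c <;> cases n.testBit c <;> simp [CharTwo.add_self_eq_zero]

theorem bt_two_pow (i c : ℕ) : bt K (2 ^ i) c = if i = c then 1 else 0 := by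
  unfold bt
  rw [Nat.testBit_two_pow]
  by_cases h : i = c <;> simp [h]

/-- adds a column -/
def addc : List (ℕ × ℕ) → ℕ → ℕ
  | [], acc => acc
  | e :: l, acc => addc l (acc ^^^ 2 ^ e.1)

theorem bt_addc [CharP K 2] (c : ℕ) : ∀ (l : List (ℕ × ℕ)) (acc : ℕ), bt K (addc l acc) c = bt K acc c + evc 1 c l
  | [], acc => by rw [evc_nil, add_zero]; rfl
  | e :: l, acc => by
    have h : bt K (addc (e :: l) acc) c = bt K (addc l (acc ^^^ 2 ^ e.1)) c := rfl
    rw [h, bt_addc c l, bt_xor, bt_two_pow, evc_cons, one_pow, add_assoc]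

/-- adds the columns of the bits of `m` -/
def actL (m : ℕ) : ℕ → List (List (ℕ × ℕ)) → ℕ → ℕ
  | _, [], acc => acc
  | a, col :: cols, acc => actL m (a + 1) cols (bif Nat.testBit m a then addc col acc else acc)

theorem bt_actL [CharP K 2] (m c : ℕ) (f : ℕ → List (ℕ × ℕ)) : ∀ (n a acc : ℕ),
    bt K (actL m a ((List.range' a n).map f) acc) c =
      bt K acc c + ∑ i ∈ Finset.range n, evc 1 c (f (a + i)) * bt K m (a + i)
  | 0, a, acc => by
    rw [Finset.range_zero, Finset.sum_empty, add_zero]; rfl
  | n + 1, a, acc => by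
    have h : actL m a ((List.range' a (n + 1)).map f) acc =
        actL m (a + 1) ((List.range' (a + 1) n).map f) (bif Nat.testBit m a then addc (f a) acc else acc) := by
      rw [List.range'_succ, List.map_cons]; rfl
    rw [h, bt_actL m c f n, Finset.sum_range_succ', add_zero]
    have h2 : bt K (bif Nat.testBit m a then addc (f a) acc else acc) c = bt K acc c + evc 1 c (f a) * bt K m a := by
      cases hb : Nat.testBit m a
      · rw [cond_false]
        unfold bt
        rw [hb, cond_false, mul_zero, add_zero]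
      · rw [cond_true, bt_addc]
        unfold bt
        rw [hb, cond_true, mul_one]
    rw [h2, add_assoc, add_comm (evc 1 c (f a) * bt K m a)]
    congr 2
    refine Finset.sum_congr rfl fun i _ => ?_
    rw [show a + 1 + i = a + (i + 1) by omega]

/-- the action of `x_r(1)` on bit vectors -/
def act (r m : ℕ) : ℕ := actL m 0 (tab.getD r []) 0

theorem tab_getD {r : ℕ} (hr : r < 48) : tab.getD r [] = (List.range' 0 52).map fun a => colOf r a := by
  rw [tab_eq, List.getD_eq_getElem?_getD, List.getElem?_map, List.getElem?_range hr, ← List.range_eq_range']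
  rfl

/-- the vector of a bit vector -/
def vec (K : Type u) [Field K] (m : ℕ) : chevF4.Idx → K := fun v => bt K m (cd v)

theorem sum_cd (f : ℕ → K) : ∑ a : chevF4.Idx, f (cd a) = ∑ c ∈ Finset.range 52, f c := by
  refine Finset.sum_bij (fun a _ => cd a) ?_ ?_ ?_ ?_
  · intro a _
    exact Finset.mem_range.2 (cd_lt a)
  · intro a _ b _ h
    exact cd_inj h
  · intro c hc
    obtain ⟨v, hv⟩ := exists_cd (Finset.mem_range.1 hc)
    exact ⟨v, Finset.mem_univ _, hv⟩
  · intro a _
    rfl

theorem act_spec [CharP K 2] (r : Fin chevF4.nroots) (m : ℕ) :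
    (chevF4.xMat K r 1).mulVec (vec K m) = vec K (act r.val m) := by
  have hr : r.val < 48 := r.2
  funext v
  have h1 : (chevF4.xMat K r 1).mulVec (vec K m) v = ∑ a : chevF4.Idx, evc 1 (cd v) (colOf r.val (cd a)) * bt K m (cd a) := by
    show ∑ a, chevF4.xMat K r 1 v a * bt K m (cd a) = _
    refine Finset.sum_congr rfl fun a _ => ?_
    rw [ent]
  rw [h1, sum_cd fun c => evc 1 (cd v) (colOf r.val c) * bt K m c]
  show _ = bt K (act r.val m) (cd v)
  unfold act
  rw [tab_getD hr, bt_actL, bt_zero, zero_add]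
  refine Finset.sum_congr rfl fun c _ => ?_
  rw [zero_add]

/-- a word in the root elements -/
def run (w : List ℕ) (m : ℕ) : ℕ := w.foldr act m

theorem hF4' : InList chevF4 := by simp [InList]

/-- the product of the root elements -/
noncomputable def wd (K : Type u) [Field K] (w : List ℕ) : ↥(chevF4.group K) := (w.map fun r => xS hF4' r (1 : K)).prod

/-- the action on vectors -/
noncomputable def ac (g : ↥(chevF4.group K)) (v : chevF4.Idx → K) : chevF4.Idx → K :=
  ((g : GL chevF4.Idx K) : Matrix chevF4.Idx chevF4.Idx K).mulVec v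

theorem ac_one (v : chevF4.Idx → K) : ac (1 : ↥(chevF4.group K)) v = v := by
  unfold ac
  rw [Subgroup.coe_one, Units.val_one, Matrix.one_mulVec]

theorem ac_mul (g h : ↥(chevF4.group K)) (v : chevF4.Idx → K) : ac (g * h) v = ac g (ac h v) := by
  unfold ac
  rw [Subgroup.coe_mul, Units.val_mul, Matrix.mulVec_mulVec]

theorem ac_pow (g : ↥(chevF4.group K)) (v : chevF4.Idx → K) (n : ℕ) : ac (g ^ n) v = (ac g)^[n] v := by
  induction n with
  | zero => rw [pow_zero, ac_one]; rfl
  | succ n ih => rw [pow_succ', ac_mul, ih, Function.iterate_succ_apply']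

theorem ac_xS [CharP K 2] {r : ℕ} (hr : r < 48) (m : ℕ) : ac (xS hF4' r (1 : K)) (vec K m) = vec K (act r m) := by
  unfold ac
  rw [mat_xS]
  have h : chevF4.x K r 1 = chevF4.xMat K ⟨r, hr⟩ 1 := by
    unfold ChevalleyDatum.x
    exact dif_pos hr
  rw [h]
  exact act_spec (K := K) (⟨r, hr⟩ : Fin chevF4.nroots) m

theorem ac_wd [CharP K 2] {w : List ℕ} (hw : ∀ r ∈ w, r < 48) (m : ℕ) : ac (wd K w) (vec K m) = vec K (run w m) := by
  induction w with
  | nil => exact ac_one _
  | cons r w ih =>
    have h : wd K (r :: w) = xS hF4' r (1 : K) * wd K w := by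
      unfold wd
      rw [List.map_cons, List.prod_cons]
    rw [h, ac_mul, ih fun s hs => hw s (List.mem_cons_of_mem _ hs), ac_xS (hw r List.mem_cons_self)]
    rfl

theorem iter_wd [CharP K 2] {w : List ℕ} (hw : ∀ r ∈ w, r < 48) (m n : ℕ) :
    (ac (wd K w))^[n] (vec K m) = vec K ((run w)^[n] m) := by
  induction n generalizing m with
  | zero => rfl
  | succ n ih => rw [Function.iterate_succ_apply, Function.iterate_succ_apply, ac_wd hw, ih]

theorem vec_ne {m n c : ℕ} (hc : c < 52) (h : Nat.testBit m c ≠ Nat.testBit n c) : vec K m ≠ vec K n := by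
  intro h1
  obtain ⟨v, hv⟩ := exists_cd hc
  have h2 : bt K m (cd v) = bt K n (cd v) := congrFun h1 v
  rw [hv] at h2
  unfold bt at h2
  cases ha : Nat.testBit m c <;> cases hb : Nat.testBit n c
  · exact h (ha.trans hb.symm)
  · rw [ha, hb, cond_false, cond_true] at h2
    exact zero_ne_one h2
  · rw [ha, hb, cond_false, cond_true] at h2
    exact one_ne_zero h2
  · exact h (ha.trans hb.symm)

/-- **A prime divides the order.** -/
theorem dvd_order [CharP K 2] {w : List ℕ} (hw : ∀ r ∈ w, r < 48) {p m c : ℕ} (hp : p.Prime)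
    (h1 : (run w)^[p] m = m) (hc : c < 52) (h2 : Nat.testBit (run w m) c ≠ Nat.testBit m c) :
    p ∣ orderOf (wd K w) := by
  have h3 : Function.IsPeriodicPt (ac (wd K w)) p (vec K m) := by
    show (ac (wd K w))^[p] (vec K m) = vec K m
    rw [iter_wd hw, h1]
  have h4 := h3.minimalPeriod_dvd
  have h5 : Function.minimalPeriod (ac (wd K w)) (vec K m) = p := by
    rcases (Nat.dvd_prime hp).1 h4 with h | h
    · exfalso
      rw [Function.minimalPeriod_eq_one_iff_isFixedPt] at h
      have h6 : ac (wd K w) (vec K m) = vec K m := h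
      rw [ac_wd hw] at h6
      exact vec_ne hc h2 h6
    · exact h
  have h6 : Function.IsPeriodicPt (ac (wd K w)) (orderOf (wd K w)) (vec K m) := by
    show (ac (wd K w))^[orderOf (wd K w)] (vec K m) = vec K m
    rw [← ac_pow, pow_orderOf_eq_one, ac_one]
  rw [← h5]
  exact h6.minimalPeriod_dvd

end Cfsg.Agent.H39.F4G
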