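import Cfsg.Agent.H39.F4G.Bits
import Cfsg.Agent.H296.FFourGam

/-!
# The element `x` of order 17 of `F₄(2)` with `x · al x` of order 13 (helper39, for S3938)
-/

set_option autoImplicit false

namespace Cfsg.Agent.H39.F4G

open Cfsg Cfsg.Lie Cfsg.Agent.ChevalleyStructure Cfsg.Agent.ChevalleyStructure.Elts
open Cfsg.Agent.H79.SimpleGen (xS)
open Cfsg.Agent.H296.FFour (al al_xS br la)

universe u

/-- the word of `x` -/
def wx : List ℕ := [10, 23, 44, 29, 18, 22]

/-- the word of `al x` -/
def wy : List ℕ := [15, 14, 47, 41, 6, 20]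

theorem wy_eq : wx.map br = wy := by decide +kernel

theorem wx_lt : ∀ r ∈ wx, r < 48 := by decide

theorem wxy_lt : ∀ r ∈ wx ++ wy, r < 48 := by decide

theorem chk17 : (run wx)^[17] 1 = 1 ∧ Nat.testBit (run wx 1) 1 ≠ Nat.testBit 1 1 := by decide +kernel

theorem chk13 : (run (wx ++ wy))^[13] 1 = 1 ∧ Nat.testBit (run (wx ++ wy) 1) 1 ≠ Nat.testBit 1 1 := by decide +kernel

variable {K : Type u} [Field K] [CharP K 2] [PerfectRing K 2]

theorem al_wd : ∀ w : List ℕ, (∀ r ∈ w, r < 48) → al K (wd K w) = wd K (w.map br)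
  | [], _ => map_one _
  | r :: w, h => by
    have h1 : wd K (r :: w) = xS hF4' r (1 : K) * wd K w := by
      unfold wd
      rw [List.map_cons, List.prod_cons]
    have h2 : wd K ((r :: w).map br) = xS hF4' (br r) (1 : K) * wd K (w.map br) := by
      unfold wd
      rw [List.map_cons, List.map_cons, List.prod_cons]
    rw [h1, map_mul, al_wd w fun s hs => h s (List.mem_cons_of_mem _ hs), h2]
    have h3 := al_xS (K := K) (h r List.mem_cons_self) 1
    rw [one_pow] at h3
    rw [h3]

omit [PerfectRing K 2] in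
theorem dvd17 : 17 ∣ orderOf (wd K wx) :=
  dvd_order wx_lt (by norm_num) chk17.1 (by norm_num) chk17.2

theorem dvd13 : 13 ∣ orderOf (wd K wx * al K (wd K wx)) := by
  rw [al_wd wx wx_lt, wy_eq]
  have h : wd K wx * wd K wy = wd K (wx ++ wy) := by
    unfold wd
    rw [List.map_append, List.prod_append]
  rw [h]
  exact dvd_order wxy_lt (by norm_num) chk13.1 (by norm_num) chk13.2

end Cfsg.Agent.H39.F4G
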