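import Cfsg.Agent.H39.F4G.Cert
import Cfsg.Agent.S2156
import Cfsg.Agent.H862.Spr.ULTwo

/-!
# S3938, `F₄(2)`: the outer automorphisms of order two (helper39)

`conj_al` : an automorphism of order two of `F₄(2)` which is not inner is conjugate to the exceptional graph automorphism;
`graph_body` : `Body a` for these automorphisms.
-/

set_option autoImplicit false

namespace Cfsg.Agent.H39.F4G

open Cfsg Cfsg.Lie Cfsg.Agent.ChevalleyStructure Cfsg.Agent.ChevalleyStructure.Elts
open Cfsg.Agent.H79.SimpleGen (xS)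
open Cfsg.Agent.H296.FFour (al al_xS br la hp4)
open Cfsg.Agent.CpAut.RgdUntw (fld fld_one)
open Cfsg.Agent.H862.Spr (Body)

universe u

variable {K : Type u} [Field K] [Fintype K]

theorem charP_two (hK : Fintype.card K = 2) : CharP K 2 :=
  charP_of_card_eq_prime_pow (p := 2) (f := 1) (by rw [hK]; rfl)

theorem units_one (hK : Fintype.card K = 2) (u : Kˣ) : u = 1 := by
  classical
  have h1 : Fintype.card Kˣ = 1 := by rw [Fintype.card_units, hK]
  have := Fintype.card_le_one_iff_subsingleton.1 h1.le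
  exact Subsingleton.elim _ _

theorem ringAut_one (hK : Fintype.card K = 2) (τ : K ≃+* K) : τ = 1 := by
  ext x
  by_cases hx : x = 0
  · rw [hx, map_zero, map_zero]
  · have h1 : Units.mk0 x hx = 1 := units_one hK _
    have h2 : x = 1 := congrArg Units.val h1
    rw [h2, map_one, map_one]

theorem conj_al (hK : Fintype.card K = 2) [CharP K 2] [PerfectRing K 2] {a : MulAut ↥(chevF4.group K)}
    (ha : a * a = 1) (hn : ∀ g, a ≠ MulAut.conj g) : ∃ ζ : MulAut ↥(chevF4.group K), a = ζ⁻¹ * al K * ζ := by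
  obtain ⟨x, d, g, f, hd, hg, hf, h⟩ := Cfsg.Agent.S2156.result (F := K) chevF4 (by simp) a
  have hg1 : (g : MulAut ↥(chevF4.group K)) ≠ 1 := by
    intro hg1
    have hf1 : (f : MulAut ↥(chevF4.group K)) = 1 := by
      obtain ⟨τ, hτ⟩ := Cfsg.Agent.H296.ESixGF.eq_fld hp4 (g := f) hf
      rw [hτ, ringAut_one hK τ, fld_one]
    have hd1 : (d : MulAut ↥(chevF4.group K)) = 1 := by
      obtain ⟨χ, hχ, h1⟩ := hd
      have hχ1 : χ = fun _ => 1 := funext fun r => units_one hK _
      apply MulEquiv.ext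
      intro y
      apply Subtype.ext
      apply Units.ext
      rw [h1 y]
      subst hχ1
      have h2 : chevF4.charDiag K (fun _ => (1 : Kˣ)) = 1 := by
        unfold ChevalleyDatum.charDiag
        ext i j
        rcases i with i | i <;> rcases j with j | j <;> simp [Matrix.diagonal, Matrix.one_apply]
      have h3 : chevF4.charDiag K (fun r => ((fun _ => (1 : Kˣ)) r)⁻¹) = 1 := by
        simp only [inv_one]
        exact h2
      rw [h2, h3, one_mul, mul_one]
      rfl
    apply hn x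
    apply MulEquiv.ext
    intro y
    rw [h y, MulAut.conj_apply]
    have e1 : f y = y := congrArg (fun e : MulAut ↥(chevF4.group K) => e y) hf1
    have e2 : g y = y := congrArg (fun e : MulAut ↥(chevF4.group K) => e y) hg1
    have e3 : d y = y := congrArg (fun e : MulAut ↥(chevF4.group K) => e y) hd1
    rw [e1, e2, e3]
  obtain ⟨m, τ, ζ, hm, -, hζ⟩ := Cfsg.Agent.H296.FFour.main (F := K) ha (y := x) (d := d) (g := g) (φ := f) hd hg hf
    hg1 h
  refine ⟨ζ, ?_⟩
  rw [hζ, ringAut_one hK τ, fld_one, mul_one]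

/-- **`F₄(2)`, the outer automorphisms of order two.** -/
theorem graph_body (hK : Fintype.card K = 2)
    (hB : ∀ B : Subgroup ↥(chevF4.group K), 13 ∣ Nat.card B → 17 ∣ Nat.card B → B = ⊤)
    (a : MulAut ↥(chevF4.group K)) (ha : orderOf a = 2) (hn : ∀ g, a ≠ MulAut.conj g) : Body a := by
  have := charP_two hK
  have : Fact (Nat.Prime 2) := ⟨Nat.prime_two⟩
  have : PerfectRing K 2 := inferInstance
  have haa : a * a = 1 := by rw [← pow_two, ← ha, pow_orderOf_eq_one]
  obtain ⟨ζ, rfl⟩ := conj_al hK haa hn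
  have h1 : ζ⁻¹ * al K * ζ = ζ⁻¹ * al K * (ζ⁻¹)⁻¹ := by rw [inv_inv]
  rw [h1, Cfsg.Agent.H862.Spr.Body.conj_iff]
  refine ⟨wd K wx, fun B hx hinv => hB B ?_ ?_⟩
  · have h2 : wd K wx * al K (wd K wx) ∈ B := B.mul_mem hx (hinv _ hx)
    have h3 := orderOf_dvd_natCard (⟨_, h2⟩ : B)
    rw [← Subgroup.orderOf_coe] at h3
    exact dvd13.trans h3
  · have h3 := orderOf_dvd_natCard (⟨_, hx⟩ : B)
    rw [← Subgroup.orderOf_coe] at h3
    exact dvd17.trans h3

end Cfsg.Agent.H39.F4G
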